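import Cfsg.Agent.H179.JM.GLThree
import Cfsg.Agent.H858.Abs

/-!
# Cyclic subgroups of order 40 of `11^{1+2}.(5 × GL₂(3))` (helper179)
-/

set_option autoImplicit false

namespace Cfsg.Agent.H179.JM.Forty

open Subgroup

theorem conj_pow' {G : Type*} [Group G] (c x : G) (n : ℕ) : (c * x * c⁻¹) ^ n = c * x ^ n * c⁻¹ := conj_pow

/-- In a group of order `2^4·3·5·11^3` containing `GL₂(3)` the cyclic subgroups of order 40 are conjugate. -/
theorem conj_forty {N : Type*} [Group N] [Finite N] (hN : Nat.card N = 2 ^ 4 * 3 * 5 * 11 ^ 3) (K : Subgroup N)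
    (e : K ≃* GL (Fin 2) (ZMod 3)) {h h' : N} (ho : orderOf h = 40) (ho' : orderOf h' = 40) :
    ∃ n : N, n * h' * n⁻¹ ∈ zpowers h := by
  classical
  have f5 : Fact (Nat.Prime 5) := ⟨by norm_num⟩
  have f2 : Fact (Nat.Prime 2) := ⟨by norm_num⟩
  have ho8 : orderOf (h ^ 8) = 5 := by rw [orderOf_pow' h (by norm_num), ho]; norm_num
  have ho8' : orderOf (h' ^ 8) = 5 := by rw [orderOf_pow' h' (by norm_num), ho']; norm_num
  obtain ⟨g, hg⟩ := Cfsg.Agent.H858.Abs.exists_conj_prime (p := 5) (P := zpowers (h' ^ 8)) (P' := zpowers (h ^ 8))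
    (by rw [Nat.card_zpowers, ho8']) (by rw [Nat.card_zpowers, ho8]) (by rw [hN]; norm_num)
  set h1 := g * h' * g⁻¹ with hh1
  have ho1 : orderOf h1 = 40 := by
    have : h1 = MulAut.conj g h' := by rw [MulAut.conj_apply]
    rw [this, (MulAut.conj g).orderOf_eq, ho']
  have hz1 : zpowers (h1 ^ 8) = zpowers (h ^ 8) := by
    rw [← hg, MonoidHom.map_zpowers]
    congr 1
    show h1 ^ 8 = g * h' ^ 8 * g⁻¹
    rw [hh1, conj_pow']
  have h18 : h1 ^ 8 ∈ zpowers (h ^ 8) := by rw [← hz1]; exact mem_zpowers _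
  have h81 : h ^ 8 ∈ zpowers (h1 ^ 8) := by rw [hz1]; exact mem_zpowers _
  set C := centralizer ({h ^ 8} : Set N) with hC
  have hhC : h ∈ C := by
    rw [hC, mem_centralizer_iff]
    rintro _ rfl
    rw [← pow_succ, ← pow_succ']
  have hh1C : h1 ∈ C := by
    rw [hC, mem_centralizer_iff]
    rintro _ rfl
    obtain ⟨m, hm⟩ := h81
    rw [← hm]
    exact ((Commute.refl h1).pow_left 8).zpow_left m
  -- Sylow 2-subgroups of `C`
  have hpg : ∀ x : C, x ^ 8 = 1 → IsPGroup 2 (zpowers x) := fun x hx =>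
    IsPGroup.of_card_dvd_pow (n := 3) (by rw [Nat.card_zpowers]; exact orderOf_dvd_of_pow_eq_one hx)
  have ha8 : (⟨h, hhC⟩ ^ 5 : C) ^ 8 = 1 := by
    rw [← pow_mul]
    apply Subtype.ext
    show h ^ (5 * 8) = 1
    rw [← orderOf_dvd_iff_pow_eq_one, ho]
  have ha18 : (⟨h1, hh1C⟩ ^ 5 : C) ^ 8 = 1 := by
    rw [← pow_mul]
    apply Subtype.ext
    show h1 ^ (5 * 8) = 1
    rw [← orderOf_dvd_iff_pow_eq_one, ho1]
  obtain ⟨R, hR⟩ := (hpg _ ha8).exists_le_sylow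
  obtain ⟨R1, hR1⟩ := (hpg _ ha18).exists_le_sylow
  obtain ⟨c, hc⟩ := MulAction.exists_smul_eq C R1 R
  have haR : (⟨h, hhC⟩ ^ 5 : C) ∈ (R : Subgroup C) := hR (mem_zpowers _)
  have ha1R : c * (⟨h1, hh1C⟩ ^ 5 : C) * c⁻¹ ∈ (R : Subgroup C) := by
    rw [← hc]
    exact ⟨_, hR1 (mem_zpowers _), rfl⟩
  -- into `K`
  have hRN : IsPGroup 2 ((R : Subgroup C).map C.subtype) := R.2.map _
  obtain ⟨Q, hQ⟩ := hRN.exists_le_sylow
  have hK : Nat.card K = 48 := by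
    rw [Nat.card_congr e.toEquiv, Matrix.card_GL_field]
    simp [Fin.prod_univ_two, ZMod.card]
  obtain ⟨SK⟩ : Nonempty (Sylow 2 K) := inferInstance
  have hSK : Nat.card ((SK : Subgroup K).map K.subtype) = 2 ^ 4 := by
    rw [Subgroup.card_map_of_injective K.subtype_injective, SK.card_eq_multiplicity, hK]
    congr 1
    rw [Nat.factorization_def _ f2.out, show (48 : ℕ) = 2 ^ 4 * 3 by norm_num,
      padicValNat.mul (by norm_num) (by norm_num), padicValNat.prime_pow,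
      padicValNat.eq_zero_of_not_dvd (by norm_num)]
  have hSp : IsPGroup 2 ((SK : Subgroup K).map K.subtype) := SK.2.map _
  have hSi : ¬ 2 ∣ ((SK : Subgroup K).map K.subtype).index := by
    have h2 := ((SK : Subgroup K).map K.subtype).card_mul_index
    rw [hSK, hN] at h2
    intro h3
    obtain ⟨j, hj⟩ := h3
    rw [hj] at h2
    omega
  obtain ⟨m, hm⟩ := MulAction.exists_smul_eq N Q (hSp.toSylow hSi)
  set a := h ^ 5 with ha
  set a2 := (c : N) * h1 ^ 5 * (c : N)⁻¹ with ha2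
  have haQ : a ∈ (Q : Subgroup N) := hQ ⟨_, haR, rfl⟩
  have ha2Q : a2 ∈ (Q : Subgroup N) := hQ ⟨_, ha1R, rfl⟩
  have hmem : ∀ x ∈ (Q : Subgroup N), ∃ y : K, y ∈ (SK : Subgroup K) ∧ (y : N) = m * x * m⁻¹ := by
    intro x hx
    have h2 : m * x * m⁻¹ ∈ ((m • Q : Sylow 2 N) : Subgroup N) := ⟨x, hx, rfl⟩
    rw [hm] at h2
    obtain ⟨y, hy, hy2⟩ := h2
    exact ⟨y, hy, hy2⟩
  obtain ⟨x, hxS, hx⟩ := hmem a haQ
  obtain ⟨y, hyS, hy⟩ := hmem a2 ha2Q
  have hinj : ∀ z : K, ∀ n : ℕ, (e z) ^ n = 1 ↔ (z : N) ^ n = 1 := by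
    intro z n
    rw [← map_pow, map_eq_one_iff e e.injective]
    exact ⟨fun h => by rw [← Subgroup.coe_pow, h]; rfl, fun h => Subtype.ext (by rw [Subgroup.coe_pow, h]; rfl)⟩
  have hcj : ∀ (u v : N) (n : ℕ), (u * v * u⁻¹) ^ n = 1 ↔ v ^ n = 1 := by
    intro u v n
    rw [conj_pow']
    constructor
    · intro h
      have : v ^ n = u⁻¹ * (u * v ^ n * u⁻¹) * u := by group
      rw [this, h]; group
    · intro h
      rw [h]; group
  have ha_pow : ∀ n : ℕ, a ^ n = 1 ↔ 40 ∣ 5 * n := fun n => by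
    rw [ha, ← pow_mul, ← orderOf_dvd_iff_pow_eq_one, ho]
  have ha2_pow : ∀ n : ℕ, a2 ^ n = 1 ↔ 40 ∣ 5 * n := fun n => by
    rw [ha2, hcj, ← pow_mul, ← orderOf_dvd_iff_pow_eq_one, ho1]
  obtain ⟨n, hn⟩ := GLThree.pow_of (x := e x) (y := e y)
    (by rw [hinj, hx, hcj, ha_pow]) (by rw [ne_eq, hinj, hx, hcj, ha_pow]; norm_num)
    (by rw [hinj, hy, hcj, ha2_pow]) (by rw [ne_eq, hinj, hy, hcj, ha2_pow]; norm_num)
    (by
      apply GLThree.pow_eight
      rw [← map_mul, hinj]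
      have h3 : (x * y : K) ∈ (SK : Subgroup K) := mul_mem hxS hyS
      have h4 : ((⟨x * y, h3⟩ : (SK : Subgroup K)) ) ^ (2 ^ 4) = 1 := by
        have h5 : Nat.card (SK : Subgroup K) = 2 ^ 4 := by
          rw [← hSK, Subgroup.card_map_of_injective K.subtype_injective]
        rw [← h5]
        exact pow_card_eq_one'
      have h6 := congrArg (fun z : (SK : Subgroup K) => ((z : K) : N)) h4
      exact h6)
  have hyn : y = x ^ n := e.injective (by rw [map_pow, hn])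
  have ha2n : a2 = a ^ n := by
    have h2 : m * a2 * m⁻¹ = m * a ^ n * m⁻¹ := by
      rw [← hy, hyn, Subgroup.coe_pow, hx, conj_pow']
    have h3 := mul_right_cancel (mul_left_cancel ((mul_assoc m a2 m⁻¹).symm.trans (h2.trans (mul_assoc m (a ^ n) m⁻¹))))
    exact h3
  -- the end
  refine ⟨c * g, ?_⟩
  have h2 : c * g * h' * (c * g)⁻¹ = (c : N) * h1 * (c : N)⁻¹ := by
    rw [hh1]; group
  rw [h2]
  set h2' := (c : N) * h1 * (c : N)⁻¹ with hh2
  have e5 : h2' ^ 5 ∈ zpowers h := by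
    rw [hh2, conj_pow', ← ha2, ha2n, ha]
    exact pow_mem (pow_mem (mem_zpowers h) 5) n
  have e8 : h2' ^ 8 ∈ zpowers h := by
    rw [hh2, conj_pow']
    have h3 : (c : N) * h1 ^ 8 * (c : N)⁻¹ = h1 ^ 8 := by
      have h4 : Commute (c : N) (h ^ 8) := (mem_centralizer_iff.1 c.2 _ rfl).symm
      obtain ⟨j, hj⟩ := h18
      rw [← hj]
      have h5 : Commute (c : N) ((h ^ 8) ^ j) := h4.zpow_right j
      exact mul_inv_eq_iff_eq_mul.2 h5.eq
    rw [h3]
    obtain ⟨j, hj⟩ := h18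
    rw [← hj]
    exact zpow_mem (pow_mem (mem_zpowers h) 8) j
  have h3 : h2' = (h2' ^ 8) ^ 2 * ((h2' ^ 5) ^ 3)⁻¹ := by
    rw [← pow_mul, ← pow_mul, eq_mul_inv_iff_mul_eq, ← pow_succ']
  rw [h3]
  exact mul_mem (pow_mem e8 2) (inv_mem (pow_mem e5 3))

/-- Two cyclic subgroups of order 40 of `N` are conjugate in `N` (version for a subgroup). -/
theorem conj_forty_in {G : Type*} [Group G] [Finite G] {N : Subgroup G} (hN : Nat.card N = 2 ^ 4 * 3 * 5 * 11 ^ 3)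
    {K : Subgroup G} (hKN : K ≤ N) (e : K ≃* GL (Fin 2) (ZMod 3)) {h h' : G} (hh : h ∈ N) (hh' : h' ∈ N)
    (ho : orderOf h = 40) (ho' : orderOf h' = 40) : ∃ n ∈ N, n * h' * n⁻¹ ∈ zpowers h := by
  obtain ⟨n, hn⟩ := conj_forty (N := N) hN (K.subgroupOf N) ((subgroupOfEquivOfLe hKN).trans e)
    (h := ⟨h, hh⟩) (h' := ⟨h', hh'⟩) (by rw [← ho, ← orderOf_coe]) (by rw [← ho', ← orderOf_coe])
  obtain ⟨j, hj⟩ := hn
  refine ⟨n, n.2, j, ?_⟩
  exact congrArg Subtype.val hj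

end Cfsg.Agent.H179.JM.Forty
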