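import Cfsg.Agent.H860.JJ4
import Cfsg.Agent.H860.CountDirect

/-!
# S5580, Part III, `U₃(11)`: elements of order 8 of `J = 2^3.L3(2)` and of order 40 of `J4` (helper179)

* `cent_J` : an element of order 8 of `J` is self-centralizing in `J`;
* `cent_forty` : an element of order 40 of `J4` is self-centralizing.
-/

set_option autoImplicit false

namespace Cfsg.Agent.H179.JM.JEight

open Cfsg Cfsg.Agent.Lib.F2MatGroup Cfsg.Agent.J4.Rep112 Cfsg.Agent.J4.M24Hom
open Cfsg.Agent.J4.ClassesAbs (Hyp)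
open Cfsg.Agent.J4.Lower Cfsg.Agent.J4.GroupLemmas
open Cfsg.Agent.J4.Classes (psi hyp)
open Cfsg.Agent.H860.Act Cfsg.Agent.H860.Orb
open Cfsg.Agent.H860.PairGroup Cfsg.Agent.H860.JData Cfsg.Agent.H860.Count
open Cfsg.Agent.SporadicStructure.M24El Cfsg.Agent.SporadicA.GolayPerm
open Cfsg.Agent.H858.Loc5 (J F5)

/-- the representatives of order 8 are self-centralizing -/
def centOk (T : Tab) : Bool :=
  (List.range T.reps.length).all fun k =>
    cond (eqc (Tab.pw (T.x (T.r k)) 8) (0, idP) && !(eqc (Tab.pw (T.x (T.r k)) 4) (0, idP)))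
      ((List.range T.n).all fun i => !(eqc (mc (T.x i) (T.x (T.r k))) (mc (T.x (T.r k)) (T.x i))) ||
        (List.range 8).any fun n => eqc (T.x i) (Tab.pw (T.x (T.r k)) n)) true

theorem centOk_TJ : centOk TJ = true := by decide +kernel

section

variable {T : Tab} {G : Type*} [Group G] {R : Subgroup G} {l : List G} {phi : M24 →* G}

theorem cent_sound [Finite G] (H : Hyp R l phi)
    (hQ : ∀ m : M24, phi m ∈ Subgroup.closure {q | q ∈ l} → m = 1)
    (h : T.treeOk = true) (hc : T.closedOk = true) (hcov : T.coverOk 7 = true) (hce : centOk T = true)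
    {x c : G} (hx : x ∈ Tab.K T l phi) (hcK : c ∈ Tab.K T l phi) (h8 : x ^ 8 = 1) (h4 : x ^ 4 ≠ 1)
    (hcx : c * x = x * c) : ∃ n : ℕ, c = x ^ n := by
  obtain ⟨i, hi, rfl⟩ := Tab.exists_x H h hc hx
  unfold Tab.coverOk at hcov
  rw [Bool.and_eq_true, List.all_eq_true, List.all_eq_true] at hcov
  obtain ⟨hr, hcov⟩ := hcov
  have hr' : ∀ k < T.reps.length, T.r k < T.n := fun k hk => by
    have := hr k (List.mem_range.2 hk)
    rwa [Nat.blt_eq] at this
  have h1 := hcov i (List.mem_range.2 hi)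
  rcases hl : Nat.blt (tget T.lab 4 i) T.reps.length with _ | _
  · exfalso
    rw [hl, cond_false, Bool.and_eq_true, Bool.not_eq_true'] at h1
    have h2 : (E l phi (T.x i)) ^ 7 = 1 := by
      rw [← (Tab.E_pw H (Tab.x_ok h hi) 7).2, eqc_eq h1.1, E_one]
    apply h4
    have h3 : E l phi (T.x i) = 1 := by
      calc E l phi (T.x i) = E l phi (T.x i) ^ 8 * ((E l phi (T.x i)) ^ 7)⁻¹ := by group
        _ = 1 := by rw [h8, h2]; simp
    rw [h3, one_pow]
  · rw [hl, cond_true, Bool.and_eq_true, Nat.blt_eq] at h1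
    have hl' : tget T.lab 4 i < T.reps.length := by rwa [Nat.blt_eq] at hl
    set k := tget T.lab 4 i with hk
    have hrk := hr' k hl'
    set d := E l phi (T.x (tget T.cj 11 i)) with hd
    set r := E l phi (T.x (T.r k)) with hrdef
    have hconj : d * E l phi (T.x i) * d⁻¹ = r := by
      have h2 := congrArg (E l phi) (eqc_eq h1.2)
      rw [E_mul H (Tab.x_ok h h1.1) (Tab.x_ok h hi), E_mul H (Tab.x_ok h hrk) (Tab.x_ok h h1.1)] at h2
      rw [hd, hrdef, h2]; group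
    have hr8 : r ^ 8 = 1 := (Tab.pow_eq_one_of_conj hconj 8).1 h8
    have hr4 : r ^ 4 ≠ 1 := fun h0 => h4 ((Tab.pow_eq_one_of_conj hconj 4).2 h0)
    have e8 : eqc (Tab.pw (T.x (T.r k)) 8) (0, idP) = true := by
      cases e : eqc (Tab.pw (T.x (T.r k)) 8) (0, idP)
      · exact absurd hr8 (Tab.pw_ne_one H hQ (Tab.x_ok h hrk) e)
      · rfl
    have e4 : eqc (Tab.pw (T.x (T.r k)) 4) (0, idP) = false := by
      cases e : eqc (Tab.pw (T.x (T.r k)) 4) (0, idP)
      · rfl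
      · exfalso
        apply hr4
        rw [hrdef, ← (Tab.E_pw H (Tab.x_ok h hrk) 4).2, eqc_eq e, E_one]
    unfold centOk at hce
    rw [List.all_eq_true] at hce
    have h5 := hce k (List.mem_range.2 hl')
    rw [e8, e4, Bool.not_false, Bool.and_self, cond_true, List.all_eq_true] at h5
    have hc' : d * c * d⁻¹ ∈ Tab.K T l phi :=
      mul_mem (mul_mem (Tab.x_mem H h h1.1) hcK) (inv_mem (Tab.x_mem H h h1.1))
    obtain ⟨i', hi', hci⟩ := Tab.exists_x H h hc hc'
    have h6 := h5 i' (List.mem_range.2 hi')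
    have hcomm : (d * c * d⁻¹) * r = r * (d * c * d⁻¹) := by
      rw [← hconj]
      have : d * c * d⁻¹ * (d * E l phi (T.x i) * d⁻¹) = d * (c * E l phi (T.x i)) * d⁻¹ := by group
      rw [this, hcx]
      group
    have e9 : eqc (mc (T.x i') (T.x (T.r k))) (mc (T.x (T.r k)) (T.x i')) = true := by
      cases e : eqc (mc (T.x i') (T.x (T.r k))) (mc (T.x (T.r k)) (T.x i'))
      · exfalso
        apply E_ne H hQ (Tab.x_ok h hi') (Tab.x_ok h hrk) (Tab.x_ok h hrk) (Tab.x_ok h hi') (Tab.x_lt _) (Tab.x_lt _) e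
        rw [E_mul H (Tab.x_ok h hi') (Tab.x_ok h hrk), E_mul H (Tab.x_ok h hrk) (Tab.x_ok h hi'), ← hci]
        exact hcomm
      · rfl
    rw [e9, Bool.not_true, Bool.false_or, List.any_eq_true] at h6
    obtain ⟨n, -, hn⟩ := h6
    refine ⟨n, ?_⟩
    have h7 : d * c * d⁻¹ = r ^ n := by
      rw [hci, eqc_eq hn, (Tab.E_pw H (Tab.x_ok h hrk) n).2]
    calc c = d⁻¹ * (d * c * d⁻¹) * d := by group
      _ = d⁻¹ * (d * E l phi (T.x i) * d⁻¹) ^ n * d := by rw [h7, hconj]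
      _ = E l phi (T.x i) ^ n := by rw [conj_pow]; group

end

/-- an element of order 8 of `J` is self-centralizing in `J` -/
theorem cent_J {x c : Cfsg.Spor.J4} (hx : x ∈ J) (hc : c ∈ J) (h8 : x ^ 8 = 1) (h4 : x ^ 4 ≠ 1)
    (hcx : c * x = x * c) : ∃ n : ℕ, c = x ^ n := by
  have hx' : rho x ∈ Tab.K TJ qs psi := by
    rw [← Cfsg.Agent.H860.JJ4.map_J]; exact ⟨x, hx, rfl⟩
  have hc' : rho c ∈ Tab.K TJ qs psi := by
    rw [← Cfsg.Agent.H860.JJ4.map_J]; exact ⟨c, hc, rfl⟩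
  have e8 : rho x ^ 8 = 1 := by rw [← map_pow, h8, map_one]
  have e4 : rho x ^ 4 ≠ 1 := fun h0 =>
    h4 (Cfsg.Agent.H858.VK.rho_injective ((map_pow rho x 4).trans (h0.trans (map_one rho).symm)))
  have ec : rho c * rho x = rho x * rho c := by rw [← map_mul, hcx, map_mul]
  obtain ⟨n, hn⟩ := cent_sound (T := TJ) hyp Cfsg.Agent.H860.JJ4.psi_inter
    Cfsg.Agent.H860.JTab.tree Cfsg.Agent.H860.JTab.closed Cfsg.Agent.H860.JTab.cover centOk_TJ hx' hc' e8 e4 ec
  exact ⟨n, Cfsg.Agent.H858.VK.rho_injective (hn.trans (map_pow rho x n).symm)⟩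

local notation "𝒢" => Cfsg.Spor.J4

instance : Finite 𝒢 := Cfsg.Agent.H858.VK.finite_J4

/-- an element of order 40 of `J4` is self-centralizing -/
theorem cent_forty {h c : 𝒢} (hh : orderOf h = 40) (hc : c * h = h * c) : c ∈ Subgroup.zpowers h := by
  classical
  have f5 : Fact (Nat.Prime 5) := ⟨by norm_num⟩
  -- conjugate `⟨h ^ 8⟩` into `F5`
  have ho : orderOf (h ^ 8) = 5 := by rw [orderOf_pow' h (by norm_num), hh]; norm_num
  have hz : Nat.card (Subgroup.zpowers (h ^ 8)) = 5 := by rw [Nat.card_zpowers, ho]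
  obtain ⟨g, hg⟩ := Cfsg.Agent.H858.Abs.exists_conj_prime (p := 5) Cfsg.Agent.H858.Loc5.card_F5 hz
    (by rw [Cfsg.Agent.H858.FixJ4.card_J4]; norm_num)
  set k := g⁻¹ * h * g with hk
  set e := g⁻¹ * c * g with he
  have hkk : ∀ n : ℕ, k ^ n = g⁻¹ * h ^ n * g := fun n => by
    have := conj_pow (i := n) (a := g⁻¹) (b := h)
    rw [inv_inv] at this
    exact this
  have hok : orderOf k = 40 := by
    rw [← hh]
    have : k = MulAut.conj g⁻¹ h := by rw [MulAut.conj_apply, inv_inv]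
    rw [this]
    exact (MulAut.conj g⁻¹).orderOf_eq h
  have hek : e * k = k * e := by
    rw [hk, he]
    calc g⁻¹ * c * g * (g⁻¹ * h * g) = g⁻¹ * (c * h) * g := by group
      _ = g⁻¹ * (h * c) * g := by rw [hc]
      _ = g⁻¹ * h * g * (g⁻¹ * c * g) := by group
  have hk8 : k ^ 8 ∈ F5 := by
    have h1 : h ^ 8 ∈ F5.map (MulAut.conj g).toMonoidHom := by
      rw [hg]; exact Subgroup.mem_zpowers _
    obtain ⟨y, hy, hy2⟩ := h1
    have h2 : g * y * g⁻¹ = h ^ 8 := hy2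
    have h3 : k ^ 8 = y := by rw [hkk, ← h2]; group
    rw [h3]
    exact hy
  have hF5 : F5 = Subgroup.zpowers (k ^ 8) := by
    symm
    refine Subgroup.eq_of_le_of_card_ge (Subgroup.zpowers_le.2 hk8) ?_
    rw [Cfsg.Agent.H858.Loc5.card_F5, Nat.card_zpowers, orderOf_pow' k (by norm_num), hok]
    norm_num
  have hcen : ∀ y : 𝒢, y * k = k * y → y ∈ Subgroup.centralizer (F5 : Set 𝒢) := by
    intro y hy
    rw [hF5, Subgroup.mem_centralizer_iff]
    rintro _ ⟨n, rfl⟩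
    have h1 : Commute y k := hy
    exact ((h1.pow_right 8).zpow_right n).eq.symm
  have hdp := Cfsg.Agent.H858.Loc5.directProduct
  obtain ⟨s, hs, i, hi, hsi⟩ := Cfsg.Agent.H860.CountDirect.exists_mul hdp (hcen k rfl)
  obtain ⟨s', hs', i', hi', hsi'⟩ := Cfsg.Agent.H860.CountDirect.exists_mul hdp (hcen e hek)
  have hcomm : ∀ a ∈ F5, ∀ b ∈ J, Commute a b := fun a ha b hb => hdp.2.2.1 a ha b hb
  have hs5 : ∀ a ∈ F5, a ^ 5 = 1 := by
    intro a ha
    have := pow_card_eq_one' (x := (⟨a, ha⟩ : F5))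
    rw [Cfsg.Agent.H858.Loc5.card_F5] at this
    exact congrArg Subtype.val this
  have hkn : ∀ n : ℕ, k ^ n = s ^ n * i ^ n := fun n => by rw [hsi, (hcomm s hs i hi).mul_pow]
  have hi8 : i ^ 8 = 1 := by
    have h1 : i ^ 8 = (s ^ 8)⁻¹ * k ^ 8 := by rw [hkn]; group
    have h2 : i ^ 8 ∈ F5 ⊓ J := Subgroup.mem_inf.2
      ⟨by rw [h1]; exact F5.mul_mem (F5.inv_mem (F5.pow_mem hs 8)) hk8, J.pow_mem hi 8⟩
    rw [Cfsg.Agent.H858.Loc5.F5_inf, Subgroup.mem_bot] at h2
    exact h2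
  have hi4 : i ^ 4 ≠ 1 := by
    intro h0
    have h1 : k ^ 20 = 1 := by
      rw [hkn, show (20 : ℕ) = 5 * 4 by norm_num, pow_mul, hs5 s hs, one_pow, one_mul, mul_comm 5 4, pow_mul, h0,
        one_pow]
    have h2 := orderOf_dvd_of_pow_eq_one h1
    rw [hok] at h2
    norm_num at h2
  have hk5 : k ^ 5 = i ^ 5 := by rw [hkn, hs5 s hs, one_mul]
  have hi25 : i = k ^ 25 := by
    rw [show (25 : ℕ) = 5 * 5 by norm_num, pow_mul, hk5, ← pow_mul, show 5 * 5 = 8 * 3 + 1 by norm_num, pow_add,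
      pow_mul, hi8, one_pow, one_mul, pow_one]
  have hii : i' * i = i * i' := by
    have h1 : Commute e i := by
      rw [hi25]
      exact Commute.pow_right (show Commute e k from hek) 25
    rw [hsi'] at h1
    have h2 : Commute s' i := hcomm s' hs' i hi
    have h3 : i' = s'⁻¹ * (s' * i') := by group
    have h4 : Commute i' i := by
      rw [h3]
      exact (h2.inv_left).mul_left h1
    exact h4.eq
  obtain ⟨n, hn⟩ := cent_J hi hi' hi8 hi4 hii
  have hs'z : s' ∈ Subgroup.zpowers k := by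
    rw [hF5] at hs'
    exact (Subgroup.zpowers_le.2 (pow_mem (Subgroup.mem_zpowers k) 8)) hs'
  have hez : e ∈ Subgroup.zpowers k := by
    rw [hsi', hn, hi25]
    exact mul_mem hs'z (pow_mem (pow_mem (Subgroup.mem_zpowers k) 25) n)
  obtain ⟨m, hm⟩ := hez
  refine ⟨m, ?_⟩
  have h1 : g * (k ^ m) * g⁻¹ = g * e * g⁻¹ := congrArg (fun y => g * y * g⁻¹) hm
  have h2 : g * e * g⁻¹ = c := by rw [he]; group
  have h3 : g * (k ^ m) * g⁻¹ = (g * k * g⁻¹) ^ m := (conj_zpow (i := m) (a := g) (b := k)).symm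
  have h4 : g * k * g⁻¹ = h := by rw [hk]; group
  rw [← h2, ← h1, h3, h4]

end Cfsg.Agent.H179.JM.JEight
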